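import Mathlib
import Cfsg.Agent.Lib.KInf.Transport
import Cfsg.Agent.S1983

/-! The quadratic element of S1983 inside a subgroup `H` of the ambient group. -/

set_option autoImplicit false
universe u
open Cfsg

namespace H57

theorem exists_quadratic_of_not_le_normalizer {G : Type u} [Group G] [Finite G] {p : ℕ} [Fact p.Prime]
    (H T : Subgroup G) (hTH : T ≤ H) (hT : IsPGroup p T) (hi : ¬ p ∣ T.relIndex H)
    (hn : ¬ H ≤ Subgroup.normalizer ((inducedFunctor kInfLower T : Subgroup G) : Set G)) :
    ∃ g : G, g ∈ T ∧ g ∉ pCoreOf p H ∧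
      ⁅⁅pCoreOf p H ⊓ Subgroup.centralizer ((pCoreOf p H : Subgroup G) : Set G), Subgroup.zpowers g⁆,
        Subgroup.zpowers g⁆ = ⊥ := by
  have hT' : IsPGroup p (T.subgroupOf H) := hT.comap_of_injective _ H.subtype_injective
  let S : Sylow p H := hT'.toSylow hi
  have hS : (S : Subgroup H) = T.subgroupOf H := rfl
  have hmap := map_inducedFunctor (KInf.isCharPFunctor_kInfLower.{u} p) H.subtype H.subtype_injective
    (T.subgroupOf H) hT'
  rw [Subgroup.subgroupOf_map_subtype, inf_eq_left.2 hTH] at hmap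
  obtain ⟨g, h1, h2, -, h3, -⟩ := Cfsg.Agent.S1983.result S (Or.inl fun h => hn (by
    have h4 := (map_le_normalizer_iff H.subtype H.subtype_injective ⊤ _).2
      (Subgroup.normalizer_eq_top_iff.2 h).ge
    rw [← MonoidHom.range_eq_map, Subgroup.range_subtype, hS] at h4
    exact hmap ▸ h4))
  refine ⟨g, h1, ?_, ?_⟩
  · rintro ⟨y, hy, e⟩
    exact h2 (Subtype.ext e ▸ hy)
  · have := congrArg (Subgroup.map H.subtype) h3
    rwa [Subgroup.map_commutator, Subgroup.map_commutator, MonoidHom.map_zpowers,
      map_inf_centralizer _ H.subtype_injective, Subgroup.map_bot] at this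

end H57
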